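import Cfsg.Agent.H774.X6.Refl
import Cfsg.Agent.H360.CC.Gram

/-!
# Odd degrees for type `E₇` (S4884, `E₇`, primes dividing `r² + 1`)

* `odd_56` : the constituents of the permutation character on the 56 weights have odd degree;
* `odd_W` : an irreducible character `φ` of `W(E₇)` with `∑_{6 ∈ K} (-1)^(|K| + 1) ⟨φ, 1_{W_K}⟩ ≠ 0` has odd degree.
-/

set_option autoImplicit false
set_option linter.unusedSectionVars false
set_option maxRecDepth 100000

namespace Cfsg.Agent.H774.X6

open Cfsg CoxeterSystem Cfsg.Agent.Tits.Core Cfsg.Agent.Tits.Exchange Cfsg.Agent.Tits.Roots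
  Cfsg.Agent.ChevalleyStructure.CoxeterGeom Cfsg.Agent.ChevalleyStructure.CoxeterGeomTypes Cfsg.Agent.Nodes.StabComb
  Cfsg.Lie Cfsg.Agent.Characters.Core
open Cfsg.Agent.H439.CC (pf mu)

theorem gen {ι : Type*} [Fintype ι] [DecidableEq ι] (m d : ι → ℕ) (T : Finset ι) (hT : ∀ i ∈ T, 1 ≤ m i)
    (h : ∑ i, m i * m i ≤ T.card) : ∑ i, m i * d i = ∑ i ∈ T, d i := by
  have h1 : ∑ i, m i * m i = ∑ i ∈ T, m i * m i + ∑ i ∈ Tᶜ, m i * m i := (Finset.sum_add_sum_compl T _).symm
  have h2 : T.card ≤ ∑ i ∈ T, m i * m i := by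
    rw [Finset.card_eq_sum_ones]
    exact Finset.sum_le_sum fun i hi => Nat.mul_pos (hT i hi) (hT i hi)
  have h3 : ∑ i ∈ Tᶜ, m i * m i = 0 := by omega
  have h4 : ∀ i ∈ Tᶜ, m i = 0 := fun i hi => mul_self_eq_zero.1 (Finset.sum_eq_zero_iff.1 h3 i hi)
  have h5 : ∀ i ∈ T, m i = 1 := by
    by_contra hcon
    push Not at hcon
    obtain ⟨i, hi, hne⟩ := hcon
    have h6 : ∑ i ∈ T, 1 < ∑ i ∈ T, m i * m i := by
      refine Finset.sum_lt_sum (fun j hj => Nat.mul_pos (hT j hj) (hT j hj)) ⟨i, hi, ?_⟩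
      have := hT i hi
      have : 2 ≤ m i := by omega
      nlinarith
    rw [← Finset.card_eq_sum_ones] at h6
    omega
  have h6 : ∑ i ∈ Tᶜ, m i * d i = 0 := Finset.sum_eq_zero fun i hi => by rw [h4 i hi, zero_mul]
  rw [← Finset.sum_add_sum_compl T, h6, add_zero]
  exact Finset.sum_congr rfl fun i hi => by rw [h5 i hi, one_mul]

theorem card_dbl_bot {G : Type*} [Group G] (P : Subgroup G) :
    Nat.card (DoubleCoset.Quotient (P : Set G) ((⊥ : Subgroup G) : Set G)) = P.index := by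
  rw [DoubleCoset.right_bot_eq_right_quot, Subgroup.index]
  exact Nat.card_congr (QuotientGroup.quotientRightRelEquivQuotientLeftRel P)

theorem mu_bot {G : Type*} [Group G] (χ : G → ℂ) : mu (⊥ : Subgroup G) χ = χ 1 := by
  unfold mu
  rw [Subgroup.card_bot, Nat.cast_one, inv_one, one_mul, finsum_unique]
  rfl

theorem mu_trivial {G : Type*} [Group G] [Finite G] (P : Subgroup G) : mu P (fun _ : G => (1 : ℂ)) = 1 := by
  unfold mu
  have := Fintype.ofFinite P
  rw [finsum_eq_sum_of_fintype, Finset.sum_const, Finset.card_univ, nsmul_eq_mul, mul_one, ← Nat.card_eq_fintype_card,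
    inv_mul_cancel₀ (by exact_mod_cast Nat.card_pos.ne')]

/-- fixed vectors of a smaller subgroup -/
theorem mu_ne_of_le {G : Type*} [Group G] [Finite G] {P Q : Subgroup G} (h : Q ≤ P) (χ : IrrCharacter G)
    (hχ : mu P (χ : G → ℂ) ≠ 0) : mu Q (χ : G → ℂ) ≠ 0 := by
  classical
  obtain ⟨n, ρ, -, hρ⟩ := χ.2
  rw [← hρ] at hχ ⊢
  have := Fintype.ofFinite P
  let σ : Representation ℂ P (Fin n → ℂ) := ρ.comp P.subtype
  have hinv : Invertible (Nat.card P : ℂ) := invertibleOfNonzero (by exact_mod_cast Nat.card_pos.ne')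
  have h1 := Representation.card_inv_mul_sum_char_eq_finrank σ
  have h2 : mu P ρ.character = (Nat.card P : ℂ)⁻¹ * ∑ g : P, σ.character g := by
    unfold mu
    rw [finsum_eq_sum_of_fintype]
    rfl
  rw [h2, h1] at hχ
  have h3 : 0 < Module.finrank ℂ (Representation.invariants σ) := Nat.pos_of_ne_zero (by exact_mod_cast hχ)
  rw [Module.finrank_pos_iff_exists_ne_zero] at h3
  obtain ⟨v, hv⟩ := h3
  refine mu_rep_ne ρ Q (v := v.1) (fun h => hv (Subtype.ext h)) fun g hg => ?_
  exact v.2 ⟨g, h hg⟩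

section E7

variable {W : Type*} [Group W] [Finite W] (cs : CoxeterSystem CoxeterMatrix.E₇ W)

/-- **The constituents of the permutation character on the 56 weights have odd degree.** -/
theorem odd_56 (φ : IrrCharacter W) (hφ : mu (P6 cs) (φ : W → ℂ) ≠ 0) : ¬ 2 ∣ charDegree (φ : W → ℂ) := by
  classical
  have := Fintype.ofFinite W
  have : Finite (IrrCharacter W) := finite_irr
  have := Fintype.ofFinite (IrrCharacter W)
  choose m hm using fun χ : IrrCharacter W => H360.CC.mu_nat (P6 cs) χ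
  choose b hb using fun χ : IrrCharacter W => H360.CC.mu_nat (PB cs) χ
  let d : IrrCharacter W → ℕ := fun χ => charDegree (χ : W → ℂ)
  have hd : ∀ χ : IrrCharacter W, mu (⊥ : Subgroup W) (χ : W → ℂ) = d χ := fun χ => by
    rw [mu_bot, Blocks.Basic.irr_one_eq_charDegree χ.2]
  let one : IrrCharacter W := ⟨fun _ => 1, Blocks.Basic.isIrrCharacter_one⟩
  have hone : d one = 1 := by
    have h1 := hd one
    rw [mu_bot] at h1
    have h2 : (1 : ℂ) = d one := h1
    exact_mod_cast h2.symm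
  have hmone : m one = 1 := by
    have h1 := hm one
    rw [show ((one : IrrCharacter W) : W → ℂ) = fun _ => 1 from rfl, mu_trivial] at h1
    exact_mod_cast h1.symm
  have hbone : b one = 1 := by
    have h1 := hb one
    rw [show ((one : IrrCharacter W) : W → ℂ) = fun _ => 1 from rfl, mu_trivial] at h1
    exact_mod_cast h1.symm
  -- the sums
  have s1 : ∑ χ, m χ * m χ ≤ 4 := by
    have h1 := H360.CC.sum_mu_mul (P6 cs) (P6 cs)
    have h2 : ((∑ χ, m χ * m χ : ℕ) : ℂ) = (Nat.card (DoubleCoset.Quotient (P6 cs : Set W) (P6 cs : Set W)) : ℂ) := by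
      rw [← h1]
      push_cast
      exact Finset.sum_congr rfl fun χ _ => by rw [hm]
    have h3 : ∑ χ, m χ * m χ = Nat.card (DoubleCoset.Quotient (P6 cs : Set W) (P6 cs : Set W)) := by exact_mod_cast h2
    rw [h3]
    exact dbl_le cs
  have s2 : ∑ χ, b χ * b χ ≤ 2 := by
    have h1 := H360.CC.sum_mu_mul (PB cs) (PB cs)
    have h2 : ((∑ χ, b χ * b χ : ℕ) : ℂ) = (Nat.card (DoubleCoset.Quotient (PB cs : Set W) (PB cs : Set W)) : ℂ) := by
      rw [← h1]
      push_cast
      exact Finset.sum_congr rfl fun χ _ => by rw [hb]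
    have h3 : ∑ χ, b χ * b χ = Nat.card (DoubleCoset.Quotient (PB cs : Set W) (PB cs : Set W)) := by exact_mod_cast h2
    rw [h3]
    exact dblB_le cs
  have s3 : ∑ χ, m χ * d χ = 56 := by
    have h1 := H360.CC.sum_mu_mul (P6 cs) (⊥ : Subgroup W)
    rw [card_dbl_bot, index_P6] at h1
    have h2 : ((∑ χ, m χ * d χ : ℕ) : ℂ) = ((56 : ℕ) : ℂ) := by
      rw [← h1]
      push_cast
      exact Finset.sum_congr rfl fun χ _ => by rw [hm, hd]
    exact_mod_cast h2
  have s4 : ∑ χ, b χ * d χ = 28 := by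
    have h1 := H360.CC.sum_mu_mul (PB cs) (⊥ : Subgroup W)
    rw [card_dbl_bot, index_PB] at h1
    have h2 : ((∑ χ, b χ * d χ : ℕ) : ℂ) = ((28 : ℕ) : ℂ) := by
      rw [← h1]
      push_cast
      exact Finset.sum_congr rfl fun χ _ => by rw [hb, hd]
    exact_mod_cast h2
  -- the character of degree 27
  obtain ⟨a, hane, hba⟩ : ∃ a, a ≠ one ∧ b a ≠ 0 := by
    by_contra hcon
    push Not at hcon
    rw [Finset.sum_eq_single one (fun χ _ hχ => by rw [hcon χ hχ, zero_mul]) (fun h => absurd (Finset.mem_univ _) h),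
      hbone, hone] at s4
    omega
  have hda : d a = 27 := by
    have h1 := gen b d {one, a} (by
      intro i hi
      rcases Finset.mem_insert.1 hi with rfl | hi
      · omega
      · rw [Finset.mem_singleton.1 hi]
        omega) (by rw [Finset.card_pair hane.symm]; exact s2)
    rw [s4, Finset.sum_pair hane.symm, hone] at h1
    omega
  have hma : m a ≠ 0 := by
    intro h0
    refine mu_ne_of_le (P6_le cs) a ?_ (by rw [hm, h0, Nat.cast_zero])
    rw [hb]
    exact_mod_cast hba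
  -- the reflection character
  let r : IrrCharacter W := ⟨(rho7 cs).character, irr_rho7 cs⟩
  have hdr : d r = 7 := by
    have h1 := hd r
    rw [mu_bot, show ((r : IrrCharacter W) : W → ℂ) 1 = 7 from rho7_one cs] at h1
    exact_mod_cast h1.symm
  have hmr : m r ≠ 0 := by
    intro h0
    refine mu_rho7 cs ?_
    have h1 := hm r
    rw [h0, Nat.cast_zero] at h1
    exact h1
  have hmφ : m φ ≠ 0 := by
    intro h0
    rw [hm, h0, Nat.cast_zero] at hφ
    exact hφ rfl
  change ¬ 2 ∣ d φ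
  by_cases h1 : φ = one
  · rw [h1, hone]; omega
  by_cases h2 : φ = a
  · rw [h2, hda]; omega
  by_cases h3 : φ = r
  · rw [h3, hdr]; omega
  have n1 : a ≠ r := fun e => by rw [e, hdr] at hda; omega
  have n2 : one ≠ r := fun e => by rw [e, hdr] at hone; omega
  have hcard : ({one, a, r, φ} : Finset (IrrCharacter W)).card = 4 := by
    rw [Finset.card_insert_of_notMem, Finset.card_insert_of_notMem, Finset.card_insert_of_notMem, Finset.card_singleton]
    · simpa using Ne.symm h3
    · simp only [Finset.mem_insert, Finset.mem_singleton, not_or]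
      exact ⟨n1, Ne.symm h2⟩
    · simp only [Finset.mem_insert, Finset.mem_singleton, not_or]
      exact ⟨hane.symm, n2, Ne.symm h1⟩
  have h4 := gen m d {one, a, r, φ} (by
    intro i hi
    simp only [Finset.mem_insert, Finset.mem_singleton] at hi
    rcases hi with rfl | rfl | rfl | rfl <;> omega) (by rw [hcard]; exact s1)
  rw [s3, Finset.sum_insert, Finset.sum_insert, Finset.sum_insert, Finset.sum_singleton, hone, hda, hdr] at h4
  · omega
  · simpa using Ne.symm h3
  · simp only [Finset.mem_insert, Finset.mem_singleton, not_or]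
    exact ⟨n1, Ne.symm h2⟩
  · simp only [Finset.mem_insert, Finset.mem_singleton, not_or]
    exact ⟨hane.symm, n2, Ne.symm h1⟩

/-- **The Weyl side for `Θ₀`** -/
theorem odd_W (φ : IrrCharacter W)
    (hφ : ∑ K ∈ (Finset.univ : Finset (Finset (Fin 7))).filter (fun K => (6 : Fin 7) ∈ K),
      (-1 : ℂ) ^ (K.card + 1) * mu (WJ cs (K : Set (Fin 7))) (φ : W → ℂ) ≠ 0) : ¬ 2 ∣ charDegree (φ : W → ℂ) := by
  classical
  have := Fintype.ofFinite W
  let ψ : IrrCharacter W := ⟨fun w => eps cs w * (φ : W → ℂ) w, isIrr_eps cs φ.2⟩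
  have hcl := isIrr_isClassFunction φ.2
  have h1 := sum_mu cs (Finset.univ : Finset (Fin 7)) hcl
  have h2 := sum_mu cs ((Finset.univ : Finset (Fin 7)).erase 6) hcl
  have h3 : ∑ K ∈ (Finset.univ : Finset (Fin 7)).powerset, (-1 : ℂ) ^ K.card * mu (WJ cs (K : Set (Fin 7))) (φ : W → ℂ) =
      ∑ K ∈ ((Finset.univ : Finset (Fin 7)).erase 6).powerset, (-1 : ℂ) ^ K.card * mu (WJ cs (K : Set (Fin 7))) (φ : W → ℂ) +
      ∑ K ∈ (Finset.univ : Finset (Finset (Fin 7))).filter (fun K => (6 : Fin 7) ∈ K),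
        (-1 : ℂ) ^ K.card * mu (WJ cs (K : Set (Fin 7))) (φ : W → ℂ) := by
    rw [← Finset.sum_filter_add_sum_filter_not _ (fun K : Finset (Fin 7) => (6 : Fin 7) ∈ K), add_comm]
    have e1 : (Finset.univ : Finset (Fin 7)).powerset.filter (fun K => ¬ (6 : Fin 7) ∈ K) =
        ((Finset.univ : Finset (Fin 7)).erase 6).powerset := by
      ext K
      simp only [Finset.mem_filter, Finset.mem_powerset, Finset.subset_univ, true_and]
      constructor
      · intro h i hi
        exact Finset.mem_erase.2 ⟨fun e => h (e ▸ hi), Finset.mem_univ _⟩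
      · intro h h6
        exact (Finset.mem_erase.1 (h h6)).1 rfl
    rw [e1]
    rfl
  have h4 : ∑ K ∈ (Finset.univ : Finset (Finset (Fin 7))).filter (fun K => (6 : Fin 7) ∈ K),
      (-1 : ℂ) ^ (K.card + 1) * mu (WJ cs (K : Set (Fin 7))) (φ : W → ℂ) =
      mu (WJ cs (((Finset.univ : Finset (Fin 7)).erase 6 : Finset (Fin 7)) : Set (Fin 7))) (ψ : W → ℂ) -
      mu (WJ cs ((Finset.univ : Finset (Fin 7)) : Set (Fin 7))) (ψ : W → ℂ) := by
    have h5 : ∑ K ∈ (Finset.univ : Finset (Finset (Fin 7))).filter (fun K => (6 : Fin 7) ∈ K),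
      (-1 : ℂ) ^ (K.card + 1) * mu (WJ cs (K : Set (Fin 7))) (φ : W → ℂ) =
      - ∑ K ∈ (Finset.univ : Finset (Finset (Fin 7))).filter (fun K => (6 : Fin 7) ∈ K),
        (-1 : ℂ) ^ K.card * mu (WJ cs (K : Set (Fin 7))) (φ : W → ℂ) := by
      rw [← Finset.sum_neg_distrib]
      exact Finset.sum_congr rfl fun K _ => by rw [pow_succ]; ring
    rw [h5]
    rw [h3] at h1
    rw [h2] at h1
    linear_combination (-1 : ℂ) * h1
  have hset : (((Finset.univ : Finset (Fin 7)).erase 6 : Finset (Fin 7)) : Set (Fin 7)) = {i : Fin 7 | i ≠ 6} := by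
    ext i
    simp
  rw [h4, hset] at hφ
  change mu (P6 cs) (ψ : W → ℂ) - _ ≠ 0 at hφ
  have hψ : mu (P6 cs) (ψ : W → ℂ) ≠ 0 := by
    intro h0
    apply hφ
    rw [h0, zero_sub, neg_eq_zero]
    by_contra h6
    exact mu_ne_of_le (by rw [Finset.coe_univ, WJ_univ]; exact le_top) ψ h6 h0
  have h7 := odd_56 cs ψ hψ
  have h8 : charDegree (ψ : W → ℂ) = charDegree (φ : W → ℂ) := by
    have h9 : (ψ : W → ℂ) 1 = (φ : W → ℂ) 1 := by
      change eps cs 1 * (φ : W → ℂ) 1 = _
      rw [eps_one, one_mul]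
    rw [Blocks.Basic.irr_one_eq_charDegree ψ.2, Blocks.Basic.irr_one_eq_charDegree φ.2] at h9
    exact_mod_cast h9
  rwa [h8] at h7

end E7

end Cfsg.Agent.H774.X6
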