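import Cfsg.Agent.H774.X6.Solomon
import Cfsg.Agent.H360.CC.Gram
import Cfsg.Agent.Nodes.StabComb
import Cfsg.Agent.ChevalleyStructure.CoxeterGeomTypes

/-!
# The 56 weights of type `E₇` (S4884, `E₇`)

`dbl_le` : at most four double cosets of `W(E₆)` in `W(E₇)`; `dblB_le` : at most two double cosets of the stabilizer of
a pair `±p`; `index_P`, `index_B` : the indices are 56 and 28.
-/

set_option autoImplicit false
set_option linter.unusedSectionVars false
set_option maxRecDepth 100000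

namespace Cfsg.Agent.H774.X6

open Cfsg CoxeterSystem Cfsg.Agent.Tits.Core Cfsg.Agent.Tits.Exchange Cfsg.Agent.Tits.Roots
  Cfsg.Agent.ChevalleyStructure.CoxeterGeom Cfsg.Agent.ChevalleyStructure.CoxeterGeomTypes Cfsg.Agent.Nodes.StabComb
  Cfsg.Lie

/-- the weights, twice -/
def L56 : List (Fin 7 → ℤ) := [![2, 3, 4, 6, 5, 4, 3], ![2, 3, 4, 6, 5, 4, 1], ![2, 3, 4, 6, 5, 2, 1], ![2, 3, 4, 6,
  3, 2, 1], ![2, 3, 4, 4, 3, 2, 1], ![2, 1, 4, 4, 3, 2, 1], ![2, 3, 2, 4, 3, 2, 1], ![2, 1, 2, 4, 3, 2, 1], ![0, 3,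
  2, 4, 3, 2, 1], ![0, 1, 2, 4, 3, 2, 1], ![2, 1, 2, 2, 3, 2, 1], ![0, 1, 2, 2, 3, 2, 1], ![2, 1, 2, 2, 1, 2, 1],
  ![0, 1, 0, 2, 3, 2, 1], ![0, 1, 2, 2, 1, 2, 1], ![2, 1, 2, 2, 1, 0, 1], ![0, 1, 0, 2, 1, 2, 1], ![0, 1, 2, 2, 1,
  0, 1], ![2, 1, 2, 2, 1, 0, -1], ![0, 1, 0, 0, 1, 2, 1], ![0, 1, 0, 2, 1, 0, 1], ![0, 1, 2, 2, 1, 0, -1], ![0, -1,
  0, 0, 1, 2, 1], ![0, 1, 0, 0, 1, 0, 1], ![0, 1, 0, 2, 1, 0, -1], ![0, -1, 0, 0, 1, 0, 1], ![0, 1, 0, 0, -1, 0, 1],
  ![0, 1, 0, 0, 1, 0, -1], ![0, -1, 0, 0, -1, 0, 1], ![0, -1, 0, 0, 1, 0, -1], ![0, 1, 0, 0, -1, 0, -1], ![0, -1, 0,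
  -2, -1, 0, 1], ![0, -1, 0, 0, -1, 0, -1], ![0, 1, 0, 0, -1, -2, -1], ![0, -1, -2, -2, -1, 0, 1], ![0, -1, 0, -2,
  -1, 0, -1], ![0, -1, 0, 0, -1, -2, -1], ![-2, -1, -2, -2, -1, 0, 1], ![0, -1, -2, -2, -1, 0, -1], ![0, -1, 0, -2,
  -1, -2, -1], ![-2, -1, -2, -2, -1, 0, -1], ![0, -1, -2, -2, -1, -2, -1], ![0, -1, 0, -2, -3, -2, -1], ![-2, -1,
  -2, -2, -1, -2, -1], ![0, -1, -2, -2, -3, -2, -1], ![-2, -1, -2, -2, -3, -2, -1], ![0, -1, -2, -4, -3, -2, -1],
  ![-2, -1, -2, -4, -3, -2, -1], ![0, -3, -2, -4, -3, -2, -1], ![-2, -3, -2, -4, -3, -2, -1], ![-2, -1, -4, -4, -3,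
  -2, -1], ![-2, -3, -4, -4, -3, -2, -1], ![-2, -3, -4, -6, -3, -2, -1], ![-2, -3, -4, -6, -5, -2, -1], ![-2, -3,
  -4, -6, -5, -4, -1], ![-2, -3, -4, -6, -5, -4, -3]]

/-- twice the last fundamental weight -/
def p7 : Fin 7 → ℤ := ![2, 3, 4, 6, 5, 4, 3]

/-- the Cartan matrix -/
abbrev A7 : Fin 7 → Fin 7 → ℤ := cartanOf chevE7 7

/-- the reflections -/
def rf (i : Fin 7) (x : Fin 7 → ℤ) : Fin 7 → ℤ := fun k => if k = i then x i - pairing A7 i x else x k

theorem p7_mem : p7 ∈ L56 := by decide +kernel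

theorem rf_mem : ∀ x ∈ L56, ∀ i, rf i x ∈ L56 := by decide +kernel

theorem nodup56 : L56.Nodup := by decide +kernel

theorem dom56 : ∀ x ∈ L56, x = p7 ∨ ∃ i, pairing A7 i x < 0 := by decide +kernel

theorem domE56 : ∀ x ∈ L56, (∃ i, i ≠ 6 ∧ pairing A7 i x < 0) ∨
    ∀ y ∈ L56, x 6 = y 6 → (∃ i, i ≠ 6 ∧ pairing A7 i y < 0) ∨ x = y := by decide +kernel

theorem six56 : ∀ x ∈ L56, x 6 = 3 ∨ x 6 = 1 ∨ x 6 = -1 ∨ x 6 = -3 := by decide +kernel

theorem neg56 : ∀ x ∈ L56, -x ∈ L56 := by decide +kernel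

theorem sum56 : ∀ x ∈ L56, ∑ k, x k ≤ 27 := by decide +kernel

theorem dom_p7 : Dom A7 p7 := by
  intro i
  revert i
  decide +kernel

theorem orth_p7 : ∀ i : Fin 7, pairing A7 i p7 = 0 ↔ i ≠ 6 := by decide +kernel

variable {W : Type*} [Group W] (cs : CoxeterSystem CoxeterMatrix.E₇ W)

local notation "rp" => rep cs isCartan_E7

theorem rp_simple (i : Fin 7) (x : Fin 7 → ℤ) : rp (cs.simple i) x = rf i x := by
  funext k
  unfold rf
  by_cases hk : k = i
  · rw [if_pos hk, hk, rep_simple_apply_self]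
  · rw [if_neg hk, rep_simple_apply _ _ _ _ _ hk]

theorem rp_mem (w : W) : ∀ x ∈ L56, rp w x ∈ L56 := by
  obtain ⟨ω, rfl⟩ := cs.wordProd_surjective w
  induction ω with
  | nil =>
    intro x hx
    rw [wordProd_nil, map_one]
    exact hx
  | cons i ω ih =>
    intro x hx
    rw [wordProd_cons, rep_mul_apply, rp_simple]
    exact rf_mem _ (ih x hx) i

theorem sum_rf (i : Fin 7) (x : Fin 7 → ℤ) : ∑ k, rf i x k = ∑ k, x k - pairing A7 i x := by
  have h1 : ∀ k, rf i x k = x k - if k = i then pairing A7 i x else 0 := by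
    intro k
    unfold rf
    by_cases hk : k = i
    · rw [if_pos hk, if_pos hk, hk]
    · rw [if_neg hk, if_neg hk, sub_zero]
  rw [Finset.sum_congr rfl fun k _ => h1 k, Finset.sum_sub_distrib, Finset.sum_ite_eq' Finset.univ i, if_pos (Finset.mem_univ i)]

/-- the weights form one orbit -/
theorem exists_rp : ∀ x ∈ L56, ∃ w : W, rp w x = p7 := by
  have key : ∀ (n : ℕ) (x : Fin 7 → ℤ), x ∈ L56 → 27 - ∑ k, x k = n → ∃ w : W, rp w x = p7 := by
    intro n
    induction n using Nat.strong_induction_on with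
    | _ n ih =>
    intro x hx hn
    rcases dom56 x hx with h | ⟨i, hi⟩
    · exact ⟨1, by rw [map_one]; exact h⟩
    · have h1 := sum_rf i x
      have h2 := rf_mem x hx i
      have h3 := sum56 _ h2
      obtain ⟨m, hm⟩ : ∃ m : ℕ, 27 - ∑ k, rf i x k = m := ⟨(27 - ∑ k, rf i x k).toNat, by omega⟩
      obtain ⟨w, hw⟩ := ih m (by omega) (rf i x) h2 hm
      refine ⟨w * cs.simple i, ?_⟩
      rw [rep_mul_apply, rp_simple, hw]
  intro x hx
  have h3 := sum56 _ hx
  exact key (27 - ∑ k, x k).toNat x hx (by omega)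

/-- the parabolic subgroup of type `E₆` -/
def P6 : Subgroup W := WJ cs {i : Fin 7 | i ≠ 6}

theorem mem_P6_iff [Finite W] {w : W} : w ∈ P6 cs ↔ rp w p7 = p7 := by
  have h1 : orth cs isCartan_E7 p7 = {i : Fin 7 | i ≠ 6} := by
    ext i
    rw [mem_orth, orth_p7]
    rfl
  unfold P6
  rw [← h1]
  exact ⟨fun h => rep_of_mem_WJ_orth h, fun h => mem_WJ_of_rep dom_p7 h⟩

/-- `W(E₆)` does not change the last coordinate -/
theorem P6_six {u : W} (hu : u ∈ P6 cs) (x : Fin 7 → ℤ) : rp u x 6 = x 6 := by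
  unfold P6 WJ at hu
  induction hu using Subgroup.closure_induction generalizing x with
  | mem w hw =>
    obtain ⟨i, hi, rfl⟩ := hw
    exact rep_simple_apply _ _ _ _ _ (Ne.symm hi)
  | one => rw [map_one]; rfl
  | mul a b _ _ ha hb => rw [rep_mul_apply, ha, hb]
  | inv a _ ha =>
    have := ha (rp a⁻¹ x)
    rw [rep_apply_inv] at this
    exact this.symm

/-- to the dominant chamber of `W(E₆)` -/
theorem exists_rpE : ∀ x ∈ L56, ∃ u ∈ P6 cs, ¬ ∃ i, i ≠ 6 ∧ pairing A7 i (rp u x) < 0 := by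
  have key : ∀ (n : ℕ) (x : Fin 7 → ℤ), x ∈ L56 → 27 - ∑ k, x k = n →
      ∃ u ∈ P6 cs, ¬ ∃ i, i ≠ 6 ∧ pairing A7 i (rp u x) < 0 := by
    intro n
    induction n using Nat.strong_induction_on with
    | _ n ih =>
    intro x hx hn
    by_cases hi : ∃ i, i ≠ 6 ∧ pairing A7 i x < 0
    · obtain ⟨i, hi6, hi⟩ := hi
      have h1 := sum_rf i x
      have h2 := rf_mem x hx i
      have h3 := sum56 _ h2
      obtain ⟨m, hm⟩ : ∃ m : ℕ, 27 - ∑ k, rf i x k = m := ⟨(27 - ∑ k, rf i x k).toNat, by omega⟩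
      obtain ⟨u, hu, hu'⟩ := ih m (by omega) (rf i x) h2 hm
      refine ⟨u * cs.simple i, mul_mem hu (simple_mem_WJ cs hi6), ?_⟩
      rw [rep_mul_apply, rp_simple]
      exact hu'
    · exact ⟨1, one_mem _, by rw [map_one]; exact hi⟩
  intro x hx
  have h3 := sum56 _ hx
  exact key (27 - ∑ k, x k).toNat x hx (by omega)

/-- the double cosets are determined by the last coordinate -/
theorem dbl_eq [Finite W] {a b : W} (hab : rp a p7 6 = rp b p7 6) : ∃ u ∈ P6 cs, ∃ v ∈ P6 cs, b = u * a * v := by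
  have ha := rp_mem cs a p7 p7_mem
  have hb := rp_mem cs b p7 p7_mem
  obtain ⟨u, hu, hu'⟩ := exists_rpE cs _ ha
  obtain ⟨v, hv, hv'⟩ := exists_rpE cs _ hb
  have h1 := rp_mem cs u _ ha
  have h2 := rp_mem cs v _ hb
  have h3 : rp u (rp a p7) = rp v (rp b p7) := by
    refine ((domE56 _ h1).resolve_left hu' _ h2 ?_).resolve_left hv'
    rw [P6_six cs hu, P6_six cs hv, hab]
  refine ⟨v⁻¹ * u, mul_mem (inv_mem hv) hu, (v⁻¹ * u * a)⁻¹ * b, ?_, by group⟩
  have h4 : rp b p7 = rp (v⁻¹ * u * a) p7 := by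
    rw [rep_mul_apply, rep_mul_apply, h3, rep_inv_apply]
  rw [mem_P6_iff, rep_mul_apply, h4, rep_inv_apply]

/-- the last coordinate on the double cosets -/
theorem dbl_six [Finite W] {a b u v : W} (hu : u ∈ P6 cs) (hv : v ∈ P6 cs) (h : b = u * a * v) :
    rp a p7 6 = rp b p7 6 := by
  rw [h, rep_mul_apply, (mem_P6_iff cs).1 hv, rep_mul_apply, P6_six cs hu]

/-- **at most four double cosets** -/
theorem dbl_le [Finite W] : Nat.card (DoubleCoset.Quotient (P6 cs : Set W) (P6 cs : Set W)) ≤ 4 := by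
  let S : Finset ℤ := {3, 1, -1, -3}
  let f : DoubleCoset.Quotient (P6 cs : Set W) (P6 cs : Set W) → S :=
    Quotient.lift (fun w => ⟨rp w p7 6, by
      have := six56 _ (rp_mem cs w p7 p7_mem)
      simp only [S, Finset.mem_insert, Finset.mem_singleton]
      exact this⟩) (by
      intro a b hab
      obtain ⟨u, hu, v, hv, e⟩ := DoubleCoset.rel_iff.1 hab
      exact Subtype.ext (dbl_six cs hu hv e))
  have hf : Function.Injective f := by
    intro x y
    induction x using Quotient.inductionOn with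
    | h a =>
      induction y using Quotient.inductionOn with
      | h b =>
        intro hxy
        obtain ⟨u, hu, v, hv, e⟩ := dbl_eq cs (congrArg Subtype.val hxy)
        exact Quotient.sound (DoubleCoset.rel_iff.2 ⟨u, hu, v, hv, e⟩)
  have h1 := Nat.card_le_card_of_injective f hf
  have h2 : Nat.card S = 4 := by
    rw [Nat.card_eq_fintype_card, Fintype.card_coe]
    rfl
  omega

/-- **the index of `W(E₆)`** -/
theorem index_P6 [Finite W] : (P6 cs).index = 56 := by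
  let f : W ⧸ P6 cs → {x // x ∈ L56} := fun q => Quotient.liftOn' q (fun w => ⟨rp w p7, rp_mem cs w p7 p7_mem⟩) (by
    intro a b hab
    apply Subtype.ext
    have h1 : a⁻¹ * b ∈ P6 cs := QuotientGroup.leftRel_apply.1 hab
    rw [mem_P6_iff, rep_mul_apply] at h1
    have h2 := congrArg (rp a) h1
    rw [rep_apply_inv] at h2
    exact h2.symm)
  have hf : Function.Bijective f := by
    constructor
    · intro x y
      induction x using QuotientGroup.induction_on with
      | H a =>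
        induction y using QuotientGroup.induction_on with
        | H b =>
          intro hxy
          have h1 : rp a p7 = rp b p7 := congrArg Subtype.val hxy
          rw [QuotientGroup.eq, mem_P6_iff, rep_mul_apply, ← h1, rep_inv_apply]
    · rintro ⟨x, hx⟩
      obtain ⟨w, hw⟩ := exists_rp cs x hx
      refine ⟨((w⁻¹ : W) : W ⧸ P6 cs), Subtype.ext ?_⟩
      change rp w⁻¹ p7 = x
      rw [← hw, rep_inv_apply]
  have h1 := Nat.card_congr (Equiv.ofBijective f hf)
  have h2 : Nat.card {x // x ∈ L56} = 56 := by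
    have h3 : Nat.card {x // x ∈ L56} = L56.toFinset.card := by
      rw [← Fintype.card_coe, ← Nat.card_eq_fintype_card]
      exact Nat.card_congr (Equiv.subtypeEquivRight fun x => by simp)
    rw [h3, List.toFinset_card_of_nodup nodup56]
    rfl
  rw [Subgroup.index, h1, h2]

/-- the stabilizer of the pair -/
def PB : Subgroup W where
  carrier := {w | rp w p7 = p7 ∨ rp w p7 = -p7}
  mul_mem' := by
    intro a b ha hb
    change rp (a * b) p7 = p7 ∨ rp (a * b) p7 = -p7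
    rw [rep_mul_apply]
    rcases hb with hb | hb
    · rw [hb]
      exact ha
    · rw [hb, map_neg]
      rcases ha with ha | ha
      · right
        rw [ha]
      · left
        rw [ha, neg_neg]
  one_mem' := by
    left
    rw [map_one]
    rfl
  inv_mem' := by
    intro a ha
    change rp a⁻¹ p7 = p7 ∨ rp a⁻¹ p7 = -p7
    rcases ha with ha | ha
    · left
      have := congrArg (rp a⁻¹) ha
      rw [rep_inv_apply] at this
      exact this.symm
    · right
      have h1 := congrArg (rp a⁻¹) ha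
      rw [rep_inv_apply, map_neg] at h1
      exact (neg_eq_iff_eq_neg.2 h1).symm

theorem mem_PB {w : W} : w ∈ PB cs ↔ rp w p7 = p7 ∨ rp w p7 = -p7 := Iff.rfl

theorem P6_le [Finite W] : P6 cs ≤ PB cs := fun _ hw => Or.inl ((mem_P6_iff cs).1 hw)

theorem exists_neg : ∃ n : W, rp n p7 = -p7 := by
  obtain ⟨w, hw⟩ := exists_rp cs (-p7) (neg56 _ p7_mem)
  refine ⟨w, ?_⟩
  rw [map_neg] at hw
  exact (neg_eq_iff_eq_neg.1 hw)

theorem p7_ne : p7 ≠ -p7 := by decide +kernel

theorem index_PB [Finite W] : (PB cs).index = 28 := by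
  have h1 := Subgroup.relIndex_mul_index (P6_le cs)
  rw [index_P6] at h1
  have h2 : (P6 cs).relIndex (PB cs) = 2 := by
    unfold Subgroup.relIndex
    rw [Subgroup.index_eq_two_iff]
    obtain ⟨n, hn⟩ := exists_neg cs
    refine ⟨⟨n, Or.inr hn⟩, fun b => ?_⟩
    rw [Subgroup.mem_subgroupOf, Subgroup.mem_subgroupOf, mem_P6_iff, mem_P6_iff]
    change Xor (rp (b.1 * n) p7 = p7) _
    rw [rep_mul_apply, hn, map_neg]
    rcases b.2 with hb | hb
    · rw [hb]
      exact Or.inr ⟨rfl, fun h => p7_ne h.symm⟩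
    · rw [hb, neg_neg]
      exact Or.inl ⟨rfl, fun h => p7_ne h.symm⟩
  rw [h2] at h1
  omega

theorem dblB_eq [Finite W] {a b : W} (hab : |rp a p7 6| = |rp b p7 6|) : ∃ u ∈ PB cs, ∃ v ∈ PB cs, b = u * a * v := by
  rcases abs_eq_abs.1 hab with h | h
  · obtain ⟨u, hu, v, hv, e⟩ := dbl_eq cs h
    exact ⟨u, P6_le cs hu, v, P6_le cs hv, e⟩
  · obtain ⟨n, hn⟩ := exists_neg cs
    have h1 : rp a p7 6 = rp (b * n) p7 6 := by
      rw [rep_mul_apply, hn, map_neg]
      exact h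
    obtain ⟨u, hu, v, hv, e⟩ := dbl_eq cs h1
    refine ⟨u, P6_le cs hu, v * n⁻¹, mul_mem (P6_le cs hv) (inv_mem (Or.inr hn)), ?_⟩
    rw [← mul_assoc, ← e, mul_inv_cancel_right]

/-- the last coordinate and the invariant form -/
theorem form_p7 [Fintype W] (x : Fin 7 → ℤ) :
    2 * form cs isCartan_E7 p7 x = 2 * (x 6 * form cs isCartan_E7 (sr 6) (sr 6)) := by
  rw [form_eq_sum, Finset.mul_sum, Finset.sum_eq_single (6 : Fin 7)]
  · have h1 := two_form cs isCartan_E7 6 p7
    have h2 : pairing A7 6 p7 = 2 := by decide +kernel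
    rw [h2] at h1
    linear_combination (x 6) * h1
  · intro k _ hk
    have h1 := two_form cs isCartan_E7 k p7
    rw [(orth_p7 k).2 hk, zero_mul] at h1
    have h2 : form cs isCartan_E7 p7 (sr k) = 0 := by omega
    rw [h2, mul_zero, mul_zero]
  · intro h
    exact absurd (Finset.mem_univ _) h

theorem PB_six [Finite W] {u : W} (hu : u ∈ PB cs) (x : Fin 7 → ℤ) : |rp u x 6| = |x 6| := by
  have := Fintype.ofFinite W
  rcases hu with hu | hu
  · rw [P6_six cs ((mem_P6_iff cs).2 hu)]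
  · have h1 := form_rep cs isCartan_E7 u p7 x
    rw [hu, form_neg_left] at h1
    have h2 := form_p7 cs (rp u x)
    have h3 := form_p7 cs x
    have h4 : 0 < form cs isCartan_E7 (sr 6) (sr 6) := form_pos cs isCartan_E7 (by
      intro h
      have := congrFun h 6
      rw [sr_self] at this
      exact absurd this (by decide))
    have h5 : rp u x 6 = - x 6 := by
      apply mul_right_cancel₀ h4.ne'
      linarith
    rw [h5, abs_neg]

theorem dblB_six [Finite W] {a b u v : W} (hu : u ∈ PB cs) (hv : v ∈ PB cs) (h : b = u * a * v) :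
    |rp a p7 6| = |rp b p7 6| := by
  have h1 : |rp b p7 6| = |rp (u * a) p7 6| := by
    rw [h, rep_mul_apply]
    rcases hv with hv | hv
    · rw [hv]
    · rw [hv, map_neg, Pi.neg_apply, abs_neg]
  rw [h1, rep_mul_apply, PB_six cs hu]

/-- **at most two double cosets** -/
theorem dblB_le [Finite W] : Nat.card (DoubleCoset.Quotient (PB cs : Set W) (PB cs : Set W)) ≤ 2 := by
  let S : Finset ℤ := {3, 1}
  let f : DoubleCoset.Quotient (PB cs : Set W) (PB cs : Set W) → S :=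
    Quotient.lift (fun w => ⟨|rp w p7 6|, by
      have := six56 _ (rp_mem cs w p7 p7_mem)
      simp only [S, Finset.mem_insert, Finset.mem_singleton]
      rcases this with h | h | h | h <;> rw [h] <;> decide⟩) (by
      intro a b hab
      obtain ⟨u, hu, v, hv, e⟩ := DoubleCoset.rel_iff.1 hab
      exact Subtype.ext (dblB_six cs hu hv e))
  have hf : Function.Injective f := by
    intro x y
    induction x using Quotient.inductionOn with
    | h a =>
      induction y using Quotient.inductionOn with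
      | h b =>
        intro hxy
        obtain ⟨u, hu, v, hv, e⟩ := dblB_eq cs (congrArg Subtype.val hxy)
        exact Quotient.sound (DoubleCoset.rel_iff.2 ⟨u, hu, v, hv, e⟩)
  have h1 := Nat.card_le_card_of_injective f hf
  have h2 : Nat.card S = 2 := by
    rw [Nat.card_eq_fintype_card, Fintype.card_coe]
    rfl
  omega

end Cfsg.Agent.H774.X6
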